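import Cfsg.Agent.Lib.Ree.Torus
import Cfsg.Agent.Lib.Core.Fitting

/-! Local subgroups of the small Ree group. -/

set_option autoImplicit false
set_option linter.unusedSectionVars false
open scoped Pointwise

namespace CfsgLib.Ree

variable {K : Type*} [Field K] [CharP K 3] {φ : K →+* K} [Finite K]

namespace Model

variable {G : Type*} [Group G] (M : Model G K φ)

include M in
theorem comm_of_isPGroup_two (hφ : IsTits φ) {W : Subgroup G} (hW : IsPGroup 2 W) {x y : G} (hx : x ∈ W)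
    (hy : y ∈ W) : x * y = y * x := by
  have h := fun w hw => inv_eq_of_mul_eq_one_right (M.sq_eq_one_of_isPGroup hφ hW (x := w) hw)
  rw [← h _ (mul_mem hx hy), mul_inv_rev, h x hx, h y hy]

/-- all four-groups are conjugate -/
theorem exists_eq_conj_V (hφ : IsTits φ) {W : Subgroup G} (h4 : Nat.card W = 4) :
    ∃ g : G, W = MulAut.conj g • M.V := by
  have := M.finite
  have key : ∀ W : Subgroup G, Nat.card W = 4 → M.z ∈ W → ∃ g : G, W = MulAut.conj g • M.V := by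
    intro W h4 hz
    have hW : IsPGroup 2 W := IsPGroup.of_card (n := 2) h4
    obtain ⟨x, hx, h1, h2⟩ : ∃ x ∈ W, x ≠ 1 ∧ x ≠ M.z := by
      by_contra hc
      push Not at hc
      have := Set.ncard_le_ncard (s := (W : Set G)) (t := {1, M.z}) fun x hx => by
        by_cases h : x = 1
        exacts [Or.inl h, Or.inr (hc x hx h)]
      rw [Set.ncard_pair M.z_ne_one.symm, show (W : Set G).ncard = 4 from h4] at this
      omega
    obtain ⟨c, hc⟩ := M.invol_comm_z hφ hφ.sq h1 h2 (M.sq_eq_one_of_isPGroup hφ hW hx)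
      (M.comm_of_isPGroup_two hφ hW hx hz)
    have e : M.ψ hφ c * M.z * (M.ψ hφ c)⁻¹ = M.z := by rw [← M.z_mul_ψ, mul_inv_cancel_right]
    have hn : M.ψ hφ c * M.n * (M.ψ hφ c)⁻¹ ∈ W := by
      rcases hc with hc | hc
      · exact hc ▸ hx
      · rw [← conj_mul, e] at hc
        exact (W.mul_mem_cancel_left hz).1 (hc ▸ hx)
    refine ⟨M.ψ hφ c, (Subgroup.eq_of_le_of_card_ge ?_ (by rw [card_conj_smul, M.card_V hφ, h4])).symm⟩
    rintro _ ⟨v, rfl | rfl | rfl | rfl, rfl⟩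
    · simp [one_mem]
    · show M.ψ hφ c * M.z * (M.ψ hφ c)⁻¹ ∈ W
      rwa [e]
    · exact hn
    · show M.ψ hφ c * (M.z * M.n) * (M.ψ hφ c)⁻¹ ∈ W
      rw [← conj_mul, e]; exact mul_mem hz hn
  obtain ⟨⟨a, ha⟩, h1⟩ := Subgroup.ne_bot_iff_exists_ne_one.1 ((Subgroup.one_lt_card_iff_ne_bot W).1 (by omega))
  obtain ⟨c, hc⟩ := isConj_iff.1 (M.isConj_z hφ hφ.sq (x := a) (fun e => h1 (Subtype.ext e))
    (M.sq_eq_one_of_isPGroup hφ (IsPGroup.of_card (n := 2) h4) ha))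
  obtain ⟨g, hg⟩ := key (MulAut.conj c⁻¹ • W) (by rw [card_conj_smul, h4])
    (mem_conj_smul.2 (by rwa [inv_inv, hc]))
  exact ⟨c * g, by rw [map_mul, mul_smul, ← hg, map_inv, smul_inv_smul]⟩

theorem exists_normalizer_le_three (hφ : IsTits φ) {Q : Subgroup G} (hQ : IsPGroup 3 Q) (h1 : Q ≠ ⊥) :
    ∃ g : G, MulAut.conj g • Q ≤ M.U hφ ∧ Subgroup.normalizer (Q : Set G) ≤ MulAut.conj g⁻¹ • M.B hφ := by
  obtain ⟨g, hg⟩ := M.exists_conj_mem_U hφ hQ
  obtain ⟨⟨a, ha⟩, h2⟩ := Subgroup.ne_bot_iff_exists_ne_one.1 h1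
  refine ⟨g, by rintro _ ⟨x, hx, rfl⟩; exact hg x hx, fun x hx => mem_conj_smul.2 ?_⟩
  rw [inv_inv]
  refine M.mem_B_of_conj hφ (hg a ha) (conj_ne_one fun e => h2 (Subtype.ext e)) ?_
  rw [show g * x * g⁻¹ * (g * a * g⁻¹) * (g * x * g⁻¹)⁻¹ = g * (x * a * x⁻¹) * g⁻¹ by group]
  exact M.U_le_B hφ (hg _ ((Subgroup.mem_normalizer_iff.1 hx a).1 ha))

include M in
theorem solvable_le_normalizer (hφ : IsTits φ) {m : ℕ} (hm : 1 ≤ m) (hK : Nat.card K = 3 ^ (2 * m + 1))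
    (S : Subgroup G) (hS : Group.IsSolvable S) : ∃ A : Subgroup G, S ≤ Subgroup.normalizer (A : Set G) ∧
      ((∃ P : Sylow 2 G, A = P) ∨ (∃ P : Sylow 3 G, A = P) ∨
       (IsCyclic A ∧ (Nat.card A = (3 ^ (2 * m + 1) - 1) / 2 ∨ Nat.card A = (3 ^ (2 * m + 1) + 1) / 4 ∨
          Nat.card A = 3 ^ (2 * m + 1) - 3 ^ (m + 1) + 1 ∨ Nat.card A = 3 ^ (2 * m + 1) + 3 ^ (m + 1) + 1))) := by
  have := M.finite
  have hp : ∀ p, IsPGroup p ((Cfsg.pCore p S).map S.subtype) := fun p => (Core.isPGroup_pCore p S).map _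
  have hn : ∀ p, S ≤ Subgroup.normalizer (((Cfsg.pCore p S).map S.subtype : Subgroup G) : Set G) := fun p => by
    have := Cfsg.pCore_normal p S
    have h := Subgroup.le_normalizer_map (H := Cfsg.pCore p S) S.subtype
    rwa [Subgroup.normalizer_eq_top, ← MonoidHom.range_eq_map, Subgroup.range_subtype] at h
  by_cases h : ∃ p, p.Prime ∧ p ≠ 2 ∧ Cfsg.pCore p S ≠ ⊥
  · obtain ⟨p, hp', h2, h⟩ := h
    have := Fact.mk hp'
    rw [Ne, ← Subgroup.map_eq_bot_iff_of_injective _ S.subtype_injective] at h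
    by_cases h3 : p = 3
    · subst h3
      obtain ⟨g, -, hg⟩ := M.exists_normalizer_le_three hφ (hp 3) h
      refine ⟨_, ?_, Or.inr (Or.inl ⟨g⁻¹ • M.sylowU hφ, rfl⟩)⟩
      rw [Sylow.coe_subgroup_smul, normalizer_conj_smul, M.coe_sylowU, M.normalizer_U]
      exact (hn 3).trans hg
    · obtain ⟨T, A, hA, hd, hc⟩ := M.exists_tor hφ hm hK hp' (by have := hp'.two_le; omega)
        (((hp p).card_eq_or_dvd.resolve_left (by rwa [Subgroup.card_eq_one])).trans
          (Subgroup.card_subgroup_dvd_card _))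
      obtain ⟨g, hg⟩ := hA.exists_conj_le_of_isPGroup hd (hp p)
      have hA' := hA.smul g⁻¹
      refine ⟨_, (hn p).trans ((hA'.normalizer_eq ?_ h).le.trans hA'.normalizer_le),
        Or.inr (Or.inr ⟨hA'.cyclic, by rwa [card_conj_smul]⟩)⟩
      rwa [map_inv, ← Subgroup.pointwise_smul_subset_iff]
  push Not at h
  have : Fact (Nat.Prime 2) := ⟨Nat.prime_two⟩
  have hF : Cfsg.fittingSubgroup S = Cfsg.pCore 2 S := by
    refine le_antisymm ?_ (Core.pCore_le_fittingSubgroup Nat.prime_two)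
    rw [Core.fittingSubgroup_eq_iSup_pCore]
    refine iSup_le fun p => ?_
    by_cases h2 : (p : ℕ) = 2
    · rw [h2]
    · rw [h p p.2 h2]; exact bot_le
  have hC := Core.centralizer_fittingSubgroup_le (G := S)
  rw [hF] at hC
  obtain ⟨P, hP⟩ := (hp 2).exists_le_sylow
  have hd := Subgroup.card_dvd_of_le hP
  rw [(M.sylow_two hφ P).1] at hd
  set Q := (Cfsg.pCore 2 S).map S.subtype with hQ
  by_cases h8 : Nat.card Q = 8
  · exact ⟨Q, hn 2, Or.inl ⟨P, Subgroup.eq_of_le_of_card_ge hP (by rw [h8, (M.sylow_two hφ P).1])⟩⟩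
  by_cases h4 : Nat.card Q = 4
  · obtain ⟨g, hg⟩ := M.exists_eq_conj_V hφ h4
    refine ⟨MulAut.conj g • M.A hφ, (hn 2).trans ?_, Or.inr (Or.inr ⟨((M.tor_A hφ).smul g).cyclic,
      Or.inr (Or.inl (by rw [card_conj_smul, M.card_A, hK]))⟩)⟩
    rw [← hQ, hg, normalizer_conj_smul, normalizer_conj_smul]
    exact Subgroup.pointwise_smul_le_pointwise_smul_iff.2 (M.normalizer_V_le hφ)
  refine ⟨P, fun x hx => Subgroup.le_normalizer (hP ⟨⟨x, hx⟩, hC fun y hy => ?_, rfl⟩), Or.inl ⟨P, rfl⟩⟩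
  have h2 : Nat.card (Cfsg.pCore 2 S) ≤ 2 := by
    rw [← Subgroup.card_map_of_injective (f := S.subtype) S.subtype_injective, ← hQ]
    have : Nat.card Q ∈ Nat.divisors 8 := Nat.mem_divisors.2 ⟨hd, by norm_num⟩
    rw [show Nat.divisors 8 = {1, 2, 4, 8} by decide] at this
    simp only [Finset.mem_insert, Finset.mem_singleton] at this
    omega
  by_cases h1 : y = 1
  · simp [h1]
  by_contra hc
  have := Set.ncard_le_ncard (t := (Cfsg.pCore 2 S : Set S)) (s := {1, y, ⟨x, hx⟩ * y * ⟨x, hx⟩⁻¹}) (by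
    rintro _ (rfl | rfl | rfl)
    exacts [one_mem _, hy, (Cfsg.pCore_normal 2 S).conj_mem y hy _])
  rw [Set.ncard_insert_of_notMem (by simp [Ne.symm h1, eq_comm (a := (1 : S)), h1]), Set.ncard_pair
    (fun e => hc (by rw [eq_mul_inv_iff_mul_eq] at e; exact e))] at this
  have h3 : (Cfsg.pCore 2 S : Set S).ncard ≤ 2 := h2
  omega

end Model

end CfsgLib.Ree
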