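import Mathlib
import Cfsg.Agent.Lib.Ree.Group
import Cfsg.Agent.Lib.Pres.SL2
import Cfsg.Agent.Lib.Recog.F8
import Cfsg.Agent.Lib.SL2.PSL
import Cfsg.Agent.Lib.Classical.SLBasic
import Cfsg.Agent.Lib.Dickson.Subfield

/-! The derived group of `²G₂(3)` is `L₂(8)`. -/

set_option autoImplicit false

namespace CfsgLib.Ree.Three

open Subgroup CfsgLib.Recog CfsgLib.Pres CfsgLib.Pres.FieldMod
open scoped MatrixGroups

/-- the matrix with a given code -/
def cm (c : ℕ) : M7 (ZMod 3) := Matrix.of fun i j => ((c >>> (2 * (7 * i.val + j.val))) % 4 : ℕ)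

def xc (s : F8) : ℕ := [0x1000100010001000100010001,
  0x268618558945a4504a5296592,
  0x1919180a49181429098859a61,
  0x29a9168829a01540250018002,
  0x1656601608112484028625825,
  0x2626a49684a688114681a59aa,
  0x19494149104952a8915a0a655,
  0x2000900160015005a0565241a].getD s.toN 0

def hc : ℕ := 0x200200200204208204a045
def tc : ℕ := 0x1a9aa01a04112848024a29429

variable {G : Type*} [Group G] {φ : ZMod 3 →+* ZMod 3} (M : Model G (ZMod 3) φ)

theorem ex_gen (a b c : ZMod 3) (k : ℕ) (h : umat a a b b c c * nmat = cm k) :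
    ∃ g, M.ρ g = cm k :=
  ⟨M.u a b c * M.n, by rw [map_mul, M.ρu, M.ρn, uM, RingHom.ext_zmod φ (RingHom.id _)]; exact h⟩

theorem ex_mul {a b c : ℕ} (ha : ∃ g, M.ρ g = cm a) (hb : ∃ g, M.ρ g = cm b)
    (h : cm a * cm b = cm c) : ∃ g, M.ρ g = cm c := by
  obtain ⟨g, hg⟩ := ha
  obtain ⟨k, hk⟩ := hb
  exact ⟨g * k, by rw [map_mul, hg, hk, h]⟩

theorem ex_h : ∃ g, M.ρ g = cm hc :=
  (ex_gen M 0 0 1 0x200200200204208204a045 (by decide +kernel))

theorem ex_t : ∃ g, M.ρ g = cm tc :=
  (ex_mul M (ex_gen M 1 1 1 0x2002402502a029429aa906 (by decide +kernel))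
      (ex_gen M 2 1 0 0x200280290264256258a565 (by decide +kernel)) (c := 0x1a9aa01a04112848024a29429) (by decide +kernel))

theorem ex_x (s : F8) : ∃ g, M.ρ g = cm (xc s) := by
  fin_cases s
  · exact ⟨1, by rw [map_one]; decide +kernel⟩
  · exact (ex_mul M (ex_mul M (ex_gen M 0 0 0 0x2002002002002002002000 (by decide +kernel))
      (ex_gen M 1 1 2 0x2002402502a42912912952 (by decide +kernel)) (c := 0x16a11620162015801a0018001) (by decide +kernel))
      (ex_gen M 2 1 1 0x2002802902682512512592 (by decide +kernel)) (c := 0x268618558945a4504a5296592) (by decide +kernel))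
  · exact (ex_mul M (ex_gen M 0 2 1 0x2002002102142092156262 (by decide +kernel))
      (ex_gen M 2 2 1 0x2002802802502552406626 (by decide +kernel)) (c := 0x1919180a49181429098859a61) (by decide +kernel))
  · exact (ex_mul M (ex_mul M (ex_gen M 0 1 1 0x20020022022420a225215a (by decide +kernel))
      (ex_gen M 2 1 1 0x2002802902682512512592 (by decide +kernel)) (c := 0x1a611a21810a2011002001000) (by decide +kernel))
      (ex_gen M 1 0 2 0x2002402602882952a16881 (by decide +kernel)) (c := 0x29a9168829a01540250018002) (by decide +kernel))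
  · exact (ex_mul M (ex_gen M 2 1 2 0x200280290260258256650a (by decide +kernel))
      (ex_gen M 1 1 0 0x2002402502a829a29469a9 (by decide +kernel)) (c := 0x1656601608112484028625825) (by decide +kernel))
  · exact (ex_mul M (ex_mul M (ex_gen M 0 0 1 0x200200200204208204a045 (by decide +kernel))
      (ex_gen M 2 0 0 0x2002802a0240252268a41a (by decide +kernel)) (c := 0x182519441a19128666692615a) (by decide +kernel))
      (ex_gen M 1 2 1 0x2002402402982902892a99 (by decide +kernel)) (c := 0x2626a49684a688114681a59aa) (by decide +kernel))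
  · exact (ex_mul M (ex_gen M 2 0 1 0x2002802a0244259261a441 (by decide +kernel))
      (ex_gen M 2 2 0 0x20028028025825a24aa686 (by decide +kernel)) (c := 0x19494149104952a8915a0a655) (by decide +kernel))
  · exact (ex_mul M (ex_mul M (ex_gen M 0 0 0 0x2002002002002002002000 (by decide +kernel))
      (ex_gen M 1 2 2 0x200240240290299280aa2a (by decide +kernel)) (c := 0x1515140416601600180018001) (by decide +kernel))
      (ex_gen M 2 0 0 0x2002802a0240252268a41a (by decide +kernel)) (c := 0x2000900160015005a0565241a) (by decide +kernel))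

include M in
theorem exists_hom : ∃ f : SL(2, F8) →* G, f (SL2.uu 1) ≠ 1 := by
  obtain ⟨h, hh⟩ := ex_h M
  obtain ⟨t, ht⟩ := ex_t M
  choose x hx using ex_x M
  have htt : t⁻¹ = t := inv_eq_of_mul_eq_one_right (M.inj (by
    rw [map_mul, ht, map_one]; decide +kernel))
  have h1 : ∀ s r : F8, cm (xc (s + r)) = cm (xc s) * cm (xc r) := by decide +kernel
  have h2 : ∀ s : F8, cm hc * cm (xc s) = cm (xc (F8.ofN 2 ^ 2 * s)) * cm hc := by decide +kernel
  have h3 : ∀ (s : F8) (c : ℕ), cm tc * cm (xc s⁻¹) * cm tc = cm c →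
      M.ρ (wel x t s) = cm (xc s) * cm c * cm (xc s) := fun s c e => by
    rw [wel, htt, map_mul, map_mul, map_mul, map_mul, hx, hx, ht, e]
  obtain ⟨f, hf, -⟩ := exists_hom_sl2 (ζ := F8.ofN 2) (by decide +kernel)
    (fun s hs => by
      obtain ⟨i, hi⟩ : ∃ i : Fin 7, F8.ofN 2 ^ i.val = s := by revert s; decide +kernel
      exact ⟨i, hi⟩) (h := h) (u := x 1) (t := t) (x := x)
    ⟨fun s r => M.inj (by rw [map_mul, hx, hx, hx, h1]), rfl, fun s =>
      mul_inv_eq_iff_eq_mul.2 (M.inj (by rw [map_mul, map_mul, hx, hx, hh, h2]))⟩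
    (by
      rw [htt, eq_inv_iff_mul_eq_one, mul_assoc]
      exact M.inj (by simp only [map_mul, map_one, ht, hh]; decide +kernel))
    (M.inj (by rw [h3 1 0x2655a506891046a48694a6a2a (by decide +kernel), ht]; decide +kernel))
    (M.inj (by
      rw [h3 _ 0x250a1a9825801900290014002 (by decide +kernel), map_mul, ht, hh]; decide +kernel))
  refine ⟨f, fun e => ?_⟩
  have := hx 1
  rw [← hf, e, map_one] at this
  exact absurd this (by decide +kernel)

include M in
theorem commutator_equiv [Finite G] (hG : Nat.card G = 1512) :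
    Nat.card (commutator G) = 504 ∧ Nonempty (commutator G ≃* PSL(2, F8)) := by
  obtain ⟨f, hf⟩ := exists_hom M
  let e := SL2.pmEquiv (F := F8) (by decide +kernel)
  have hs := CfsgLib.Classical.psl_fin_isSimpleGroup (F := F8) 2 le_rfl fun _ => by
    rw [F8.card_eq]; norm_num
  have hc : Nat.card PSL(2, F8) = 504 := by
    have := Dickson.card_psl (K := F8)
    rw [Nat.card_eq_fintype_card, F8.card_eq] at this
    simpa using this
  let ψ := f.comp e.symm.toMonoidHom
  have hi : Function.Injective ψ := by
    rw [← MonoidHom.ker_eq_bot_iff]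
    refine (inferInstance : ψ.ker.Normal).eq_bot_or_eq_top.resolve_right fun h => hf ?_
    simpa [ψ] using (h ▸ mem_top (e (SL2.uu 1)) : e (SL2.uu 1) ∈ ψ.ker)
  let ε := MonoidHom.ofInjective hi
  have hK : Nat.card ψ.range = 504 := (Nat.card_congr ε.toEquiv).symm.trans hc
  have h3 : ψ.range.index = 3 := by
    have := ψ.range.card_mul_index
    rw [hK, hG] at this
    omega
  have hs' : IsSimpleGroup ψ.range := ε.symm.isSimpleGroup
  have hn : ψ.range.Normal := by
    rcases (inferInstance : (ψ.range.normalCore.subgroupOf ψ.range).Normal).eq_bot_or_eq_top with h | h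
    · have h1 : ψ.range.normalCore = ⊥ :=
        eq_bot_iff.2 fun g hg => by
          have : (⟨g, normalCore_le _ hg⟩ : ψ.range) ∈ ψ.range.normalCore.subgroupOf ψ.range := hg
          rw [h, mem_bot] at this
          exact congrArg Subtype.val this
      have h2 := card_dvd_of_injective _ ((MonoidHom.ker_eq_bot_iff _).1
        (normalCore_eq_ker ψ.range ▸ h1))
      rw [hG, Nat.card_perm, ← index_eq_card, h3] at h2
      exact absurd h2 (by decide)
    · rw [← (normalCore_le _).antisymm (subgroupOf_eq_top.1 h)]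
      infer_instance
  have h4 : commutator G = ψ.range := by
    refine le_antisymm ?_ ?_
    · have : Fact (Nat.Prime 3) := ⟨Nat.prime_three⟩
      have : IsCyclic (G ⧸ ψ.range) := isCyclic_of_prime_card (p := 3) h3
      exact (Normal.quotient_commutative_iff_commutator_le).1 inferInstance
    · have h5 : commutator PSL(2, F8) = ⊤ := by
        refine (inferInstance : (commutator PSL(2, F8)).Normal).eq_bot_or_eq_top.resolve_left
          fun h => ?_
        have := e.injective (a₁ := SL2.uu 1 * SL2.ll 1) (a₂ := SL2.ll 1 * SL2.uu 1) (by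
          rw [map_mul, map_mul]
          exact commutatorElement_eq_one_iff_mul_comm.1
            (mem_bot.1 (h ▸ commutator_mem_commutator (mem_top _) (mem_top _))))
        have := (SL2.ext2_iff.1 this).1
        simp [SL2.mul_ap] at this
      rw [MonoidHom.range_eq_map, ← h5, _root_.commutator_def, map_commutator]
      exact commutator_mono le_top le_top
  rw [h4]
  exact ⟨hK, ⟨ε.symm⟩⟩

end CfsgLib.Ree.Three
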